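import Cfsg.Agent.S0943
import Cfsg.Agent.Char.Irr
import Cfsg.Agent.Solv.SylowDirect

/-! Non-vanishing elements: counting lemmas from the functional equation of characters. -/

set_option autoImplicit false

namespace Cfsg.Lib.NonVan

open Cfsg Cfsg.Lib.Char

variable {G : Type*} [Group G]

/-- If translating two families by any conjugate of a non-vanishing element gives the same
character sums, then the identity occurs in the first family as soon as it does in the second. -/
theorem exists_eq_one [Finite G] {g : G} (hg : ∀ χ : IrrCharacter G, (χ : G → ℂ) g ≠ 0)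
    {ι : Type*} [Fintype ι] (y₁ y₂ : ι → G)
    (h : ∀ χ : IrrCharacter G, ∀ x : G,
      ∑ i, (χ : G → ℂ) (x * g * x⁻¹ * y₁ i) = ∑ i, (χ : G → ℂ) (x * g * x⁻¹ * y₂ i))
    (i₂ : ι) (h₂ : y₂ i₂ = 1) : ∃ i, y₁ i = 1 := by
  classical
  have := Fintype.ofFinite G
  have hc : (Fintype.card G : ℂ) ≠ 0 := by exact_mod_cast Fintype.card_ne_zero
  have key : ∀ χ : IrrCharacter G, ∑ i, (χ : G → ℂ) (y₁ i) = ∑ i, (χ : G → ℂ) (y₂ i) := by
    intro χ
    have e : ∀ y : ι → G, (χ : G → ℂ) 1 * ∑ x : G, ∑ i, (χ : G → ℂ) (x * g * x⁻¹ * y i) =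
        (Fintype.card G : ℂ) * (χ : G → ℂ) g * ∑ i, (χ : G → ℂ) (y i) := by
      intro y
      rw [Finset.sum_comm, Finset.mul_sum, Finset.mul_sum]
      refine Finset.sum_congr rfl fun i _ => ?_
      rw [Cfsg.Agent.S0943.sum_conj_mul χ.2 g (y i), mul_assoc]
    have e1 := e y₁
    rw [Finset.sum_congr rfl fun x _ => h χ x, e y₂] at e1
    exact (mul_left_cancel₀ (mul_ne_zero hc (hg χ)) e1).symm
  have e : ∀ y : ι → G, ∑ χ : IrrCharacter G, (χ : G → ℂ) 1 * ∑ i, (χ : G → ℂ) (y i) =
      ∑ i, if y i = 1 then (Nat.card G : ℂ) else 0 := by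
    intro y
    simp only [Finset.mul_sum]
    rw [Finset.sum_comm]
    exact Finset.sum_congr rfl fun i _ => sum_irr_degree_mul (y i)
  by_contra hn
  push Not at hn
  have e1 := e y₁
  rw [Finset.sum_congr rfl fun χ _ => by rw [key χ], e y₂] at e1
  simp only [hn, if_false, Finset.sum_const_zero] at e1
  rw [← Finset.sum_filter, Finset.sum_const, nsmul_eq_mul] at e1
  rcases mul_eq_zero.mp e1 with e2 | e2
  · have e3 : (Finset.univ.filter fun i => y₂ i = 1).card = 0 := by exact_mod_cast e2
    rw [Finset.card_eq_zero] at e3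
    have : i₂ ∈ Finset.univ.filter fun i => y₂ i = 1 := by simp [h₂]
    rw [e3] at this
    simp at this
  · have : (Nat.card G) ≠ 0 := Nat.card_pos.ne'
    exact this (by exact_mod_cast e2)

/-- A commutator with a non-vanishing element that is central modulo `M` lies in `M`. -/
theorem comm_mem [Finite G] {g : G} (hg : ∀ χ : IrrCharacter G, (χ : G → ℂ) g ≠ 0)
    (M : Subgroup G) [hM : M.Normal] (y : G)
    (hn : ∀ x : G, x * (g⁻¹ * y * g * y⁻¹) * x⁻¹ * (g⁻¹ * y * g * y⁻¹)⁻¹ ∈ M) :
    g⁻¹ * y * g * y⁻¹ ∈ M := by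
  classical
  have := Fintype.ofFinite M
  set n := g⁻¹ * y * g * y⁻¹ with hn_def
  obtain ⟨m, hm⟩ := exists_eq_one hg (fun m : M => n * (m : G)) (fun m : M => (m : G)) (by
    intro χ x
    -- `m ↦ n⁻¹ (x n x⁻¹) (w m w⁻¹)`, `w = x y x⁻¹`
    have hc : n⁻¹ * (x * n * x⁻¹) ∈ M := by
      have := hM.conj_mem _ (hn x) n⁻¹
      simpa [mul_assoc] using this
    let w := x * y * x⁻¹
    let f : M → M := fun m => ⟨n⁻¹ * (x * n * x⁻¹) * (w * m * w⁻¹), M.mul_mem hc (hM.conj_mem _ m.2 w)⟩
    have hf : Function.Bijective f := by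
      apply Finite.injective_iff_bijective.mp
      intro a b hab
      have := congrArg Subtype.val hab
      simp only [f, mul_right_inj, mul_left_inj] at this
      exact Subtype.ext this
    symm
    refine Fintype.sum_bijective f hf _ _ fun m => ?_
    have : x * g * x⁻¹ * (n * (f m : G)) = w * (x * g * x⁻¹ * m) * w⁻¹ := by
      simp only [f, w, hn_def]; group
    rw [this, χ.2.isClassFunction]) 1 rfl
  have : n = (m : G)⁻¹ := eq_inv_of_mul_eq_one_left hm
  rw [this]; exact M.inv_mem m.2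

/-- A non-vanishing element is central modulo every normal subgroup with nilpotent quotient. -/
theorem comm_mem_of_nilpotent [Finite G] {g : G} (hg : ∀ χ : IrrCharacter G, (χ : G → ℂ) g ≠ 0)
    (K : Subgroup G) [K.Normal] [Group.IsNilpotent (G ⧸ K)] (y : G) :
    g⁻¹ * y * g * y⁻¹ ∈ K := by
  obtain ⟨c, hc⟩ := Group.IsNilpotent.nilpotent (G ⧸ K)
  have key : ∀ i, g⁻¹ * y * g * y⁻¹ ∈ (Subgroup.upperCentralSeries (G ⧸ K) i).comap (QuotientGroup.mk' K) →
      g⁻¹ * y * g * y⁻¹ ∈ K := by
    intro i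
    induction i with
    | zero =>
      intro h
      rw [Subgroup.upperCentralSeries_zero, Subgroup.mem_comap, Subgroup.mem_bot] at h
      exact (QuotientGroup.eq_one_iff _).mp h
    | succ i ih =>
      intro h
      apply ih
      apply comm_mem hg
      intro x
      rw [Subgroup.mem_comap, Subgroup.mem_upperCentralSeries_succ_iff] at h
      have h1 := (Subgroup.upperCentralSeries (G ⧸ K) i).inv_mem (h (QuotientGroup.mk' K x))
      rw [Subgroup.mem_comap]
      convert h1 using 1
      simp only [map_mul, map_inv, commutatorElement_def]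
      group
  apply key c
  rw [hc]
  trivial

/-- A non-vanishing element central modulo `K` fixes every `K`-class of `K`. -/
theorem exists_conj [Finite G] {g : G} (hg : ∀ χ : IrrCharacter G, (χ : G → ℂ) g ≠ 0)
    (K : Subgroup G) [hK : K.Normal] (hc : ∀ y : G, g⁻¹ * y * g * y⁻¹ ∈ K) {k : G} (hk : k ∈ K) :
    ∃ a ∈ K, a * (g⁻¹ * k * g) * a⁻¹ = k := by
  classical
  have := Fintype.ofFinite K
  obtain ⟨a, ha⟩ := exists_eq_one hg (fun a : K => (a : G) * (g⁻¹ * k * g) * (a : G)⁻¹ * k⁻¹)
    (fun a : K => (a : G) * k * (a : G)⁻¹ * k⁻¹) (by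
    intro χ x
    let f : K → K := fun a => ⟨k⁻¹ * (g * ((g⁻¹ * x * g * x⁻¹) * a) * g⁻¹),
      K.mul_mem (K.inv_mem hk) (hK.conj_mem _ (K.mul_mem (hc x) a.2) g)⟩
    have hf : Function.Bijective f := by
      apply Finite.injective_iff_bijective.mp
      intro a b hab
      have := congrArg Subtype.val hab
      simp only [f, mul_right_inj, mul_left_inj] at this
      exact Subtype.ext this
    refine Fintype.sum_bijective f hf _ _ fun a => ?_
    let w := x * g * x⁻¹ * a * (g⁻¹ * k * g) * (a : G)⁻¹ * (x * g * x⁻¹)⁻¹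
    have : x * g * x⁻¹ * ((a : G) * (g⁻¹ * k * g) * (a : G)⁻¹ * k⁻¹) =
        w * (x * g * x⁻¹ * ((f a : G) * k * (f a : G)⁻¹ * k⁻¹)) * w⁻¹ := by
      simp only [f, w]; group
    rw [this, χ.2.isClassFunction]) 1 (by simp)
  exact ⟨a, a.2, mul_inv_eq_one.mp ha⟩

/-- A class-preserving automorphism of `p`-power order of a `p'`-group is trivial. -/
theorem aut_eq_of_isConj {K : Type*} [Group K] [Finite K] {p : ℕ} [Fact p.Prime]
    (hp : ¬ p ∣ Nat.card K) (α : MulAut K) {e : ℕ} (he : α ^ p ^ e = 1)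
    (h : ∀ k : K, IsConj (α k) k) (k : K) : α k = k := by
  classical
  have := Fintype.ofFinite K
  have htop : (α : K →* K).eqLocus (MonoidHom.id K) = ⊤ := by
    apply Cfsg.Lib.Solv.eq_top_of_forall_exists_conj_mem
    intro x
    have hiff : ∀ y : K, IsConj (α y) x ↔ IsConj y x := fun y =>
      ⟨fun h1 => (h y).symm.trans h1, fun h1 => (h y).trans h1⟩
    let σ : Equiv.Perm {y : K // IsConj y x} := Equiv.Perm.subtypePerm (α : Equiv.Perm K) hiff
    have hσ : σ ^ p ^ e = 1 := by
      have hpow : ∀ (n : ℕ) (y : {y : K // IsConj y x}), ((σ ^ n) y : K) = (α ^ n) y := by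
        intro n
        induction n with
        | zero => intro y; rfl
        | succ n ih =>
          intro y
          rw [pow_succ, pow_succ, Equiv.Perm.mul_apply, ih, MulAut.mul_apply]
          rfl
      ext y
      rw [hpow, he]; rfl
    have hcard : ¬ p ∣ Fintype.card {y : K // IsConj y x} := by
      intro hd
      apply hp
      have h1 := MulAction.card_orbit_mul_card_stabilizer_eq_card_group (ConjAct K) x
      have h2 : Fintype.card {y : K // IsConj y x} = Fintype.card (MulAction.orbit (ConjAct K) x) :=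
        Fintype.card_congr (Equiv.subtypeEquivRight fun y => ConjAct.mem_orbit_conjAct.symm)
      rw [h2] at hd
      rw [Nat.card_eq_fintype_card, ← ConjAct.card, ← h1]
      exact hd.mul_right _
    obtain ⟨y, hy⟩ := Equiv.Perm.exists_fixed_point_of_prime hcard hσ
    obtain ⟨c, hc⟩ := isConj_iff.mp y.2.symm
    refine ⟨c, ?_⟩
    rw [hc]
    exact congrArg Subtype.val hy
  have : k ∈ (α : K →* K).eqLocus (MonoidHom.id K) := by rw [htop]; trivial
  exact this

/-- Central elements are non-vanishing. -/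
theorem ne_zero_of_mem_center [Finite G] {g : G} (hg : g ∈ Subgroup.center G)
    (χ : IrrCharacter G) : (χ : G → ℂ) g ≠ 0 := by
  classical
  have := Fintype.ofFinite G
  intro h0
  have h := Cfsg.Agent.S0943.sum_conj_mul χ.2 g g⁻¹
  have e : ∀ x : G, x * g * x⁻¹ * g⁻¹ = 1 := fun x => by
    rw [Subgroup.mem_center_iff.mp hg x]; group
  simp only [e, h0, zero_mul, mul_zero, Finset.sum_const, Finset.card_univ, nsmul_eq_mul] at h
  have hc : (Fintype.card G : ℂ) ≠ 0 := by exact_mod_cast Fintype.card_ne_zero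
  have h1 := χ.2.apply_one_ne_zero
  exact mul_ne_zero h1 (mul_ne_zero hc h1) h

end Cfsg.Lib.NonVan
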